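import Cfsg.Agent.Lib.ToddCox.Prim
import Cfsg.Agent.Lib.ToddCox.A82C0.Step
import Cfsg.Agent.Lib.ToddCox.A82C1.Step
import Cfsg.Agent.Lib.ToddCox.A82C2.Step
import Cfsg.Agent.Lib.ToddCox.A82C3.Step
import Cfsg.Agent.Lib.ToddCox.A82C4.Step
import Cfsg.Agent.Lib.ToddCox.A82O.BaseL
set_option autoImplicit false
set_option maxRecDepth 100000
namespace Cfsg.Agent.Lib.ToddCox.A82O

theorem hTop : ∀ x, Cfsg.Agent.Lib.ToddCox.A82T.sg x true ∈ Cfsg.Agent.Lib.ToddCox.A82C0.Js := by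
  intro x
  cases x <;> decide +kernel
theorem hTopLT : ∀ x, Cfsg.Agent.Lib.ToddCox.A82T.LT.getD (Cfsg.Agent.Lib.ToddCox.A82T.sg x true) 1 = FreeGroup.of x := by
  intro x
  cases x <;> decide +kernel
theorem card_bd : 0 < Nat.card (PresentedGroup Cfsg.Agent.Lib.ToddCox.A82T.rels) ∧ Nat.card (PresentedGroup Cfsg.Agent.Lib.ToddCox.A82T.rels) ≤ 40320 := by
  have h4 : 0 < Nat.card (letSub gen Cfsg.Agent.Lib.ToddCox.A82C4.Js) ∧ Nat.card (letSub gen Cfsg.Agent.Lib.ToddCox.A82C4.Js) ≤ 4 * 1 :=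
    card_le_of_chain Cfsg.Agent.Lib.ToddCox.A82C4.le Cfsg.Agent.Lib.ToddCox.A82C4.step card_letSub_nil
  have h3 : 0 < Nat.card (letSub gen Cfsg.Agent.Lib.ToddCox.A82C3.Js) ∧ Nat.card (letSub gen Cfsg.Agent.Lib.ToddCox.A82C3.Js) ≤ 4 * (4 * 1) :=
    card_le_of_chain Cfsg.Agent.Lib.ToddCox.A82C3.le Cfsg.Agent.Lib.ToddCox.A82C3.step h4
  have h2 : 0 < Nat.card (letSub gen Cfsg.Agent.Lib.ToddCox.A82C2.Js) ∧ Nat.card (letSub gen Cfsg.Agent.Lib.ToddCox.A82C2.Js) ≤ 3 * (4 * (4 * 1)) :=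
    card_le_of_chain Cfsg.Agent.Lib.ToddCox.A82C2.le Cfsg.Agent.Lib.ToddCox.A82C2.step h3
  have h1 : 0 < Nat.card (letSub gen Cfsg.Agent.Lib.ToddCox.A82C1.Js) ∧ Nat.card (letSub gen Cfsg.Agent.Lib.ToddCox.A82C1.Js) ≤ 7 * (3 * (4 * (4 * 1))) :=
    card_le_of_chain Cfsg.Agent.Lib.ToddCox.A82C1.le Cfsg.Agent.Lib.ToddCox.A82C1.step h2
  have h0 : 0 < Nat.card (letSub gen Cfsg.Agent.Lib.ToddCox.A82C0.Js) ∧ Nat.card (letSub gen Cfsg.Agent.Lib.ToddCox.A82C0.Js) ≤ 120 * (7 * (3 * (4 * (4 * 1)))) :=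
    card_le_of_chain Cfsg.Agent.Lib.ToddCox.A82C0.le Cfsg.Agent.Lib.ToddCox.A82C0.step h1
  rw [show letSub gen Cfsg.Agent.Lib.ToddCox.A82C0.Js = ⊤ from letSub_top hTop hTopLT, Subgroup.card_top] at h0
  norm_num at h0
  exact h0

theorem rep_facts : ∃ ρ : PresentedGroup Cfsg.Agent.Lib.ToddCox.A82T.rels →* Equiv.Perm (Fin 10080),
    (∀ r (i : Fin 10080), ((ρ (PresentedGroup.mk Cfsg.Agent.Lib.ToddCox.A82T.rels r) i : Fin 10080) : ℕ) = tabW Cfsg.Agent.Lib.ToddCox.A82T.tab (relW Cfsg.Agent.Lib.ToddCox.A82T.sg r) i) ∧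
      Function.Injective ρ ∧ Nat.card (PresentedGroup Cfsg.Agent.Lib.ToddCox.A82T.rels) = 40320 := by
  obtain ⟨ρ, hρ⟩ := Cfsg.Agent.Lib.ToddCox.A82T.rep_exists
  have hc := card_bd
  obtain ⟨hcard, hinj⟩ := card_and_faithful hc.1 hc.2 (low hρ) (fun w _ => ⟨_, rfl⟩)
  exact ⟨ρ, hρ, hinj, hcard⟩

theorem word_one {w : List ℕ} (hw : ∀ a ∈ w, a < 6) (hb : ∀ b ∈ baseL, tabW Cfsg.Agent.Lib.ToddCox.A82T.tab w b = b) : wordVal gen w = 1 := by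
  obtain ⟨ρ, hρ, hinj, hcard⟩ := rep_facts
  exact word_one_of hρ hinj hcard hw hb

theorem word_ne_one {w : List ℕ} (hw : ∀ a ∈ w, a < 6) {k : ℕ} (hk : k < 10080) (h : tabW Cfsg.Agent.Lib.ToddCox.A82T.tab w k ≠ k) :
    wordVal gen w ≠ 1 := by
  obtain ⟨ρ, hρ, _, _⟩ := rep_facts
  intro h1
  have h2 := rep_word hρ hLT hw ⟨k, hk⟩
  rw [h1, map_one] at h2
  exact h h2.symm

theorem mk_one {r : FreeGroup Cfsg.Agent.Lib.ToddCox.OPA82.Gen} (hw : ∀ a ∈ relW Cfsg.Agent.Lib.ToddCox.A82T.sg r, a < 6) (hb : ∀ b ∈ baseL, tabW Cfsg.Agent.Lib.ToddCox.A82T.tab (relW Cfsg.Agent.Lib.ToddCox.A82T.sg r) b = b) :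
    PresentedGroup.mk Cfsg.Agent.Lib.ToddCox.A82T.rels r = 1 := by
  rw [mk_eq_word_gen Cfsg.Agent.Lib.ToddCox.A82T.letters]
  exact word_one hw hb

theorem mk_ne_one {r : FreeGroup Cfsg.Agent.Lib.ToddCox.OPA82.Gen} (hw : ∀ a ∈ relW Cfsg.Agent.Lib.ToddCox.A82T.sg r, a < 6) {k : ℕ} (hk : k < 10080)
    (h : tabW Cfsg.Agent.Lib.ToddCox.A82T.tab (relW Cfsg.Agent.Lib.ToddCox.A82T.sg r) k ≠ k) : PresentedGroup.mk Cfsg.Agent.Lib.ToddCox.A82T.rels r ≠ 1 := by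
  rw [mk_eq_word_gen Cfsg.Agent.Lib.ToddCox.A82T.letters]
  exact word_ne_one hw hk h

end Cfsg.Agent.Lib.ToddCox.A82O
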